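import Groth.Agent.Htor.H257.CechFree
import Groth.Agent.Etcore.AbHomology

/-!
# Čech cochains of the presheaf `V ↦ Hom(T(Φ(ℤ[V])), M)`

Let `Φ` be an exact functor from abelian presheaves on `C` to an abelian category `𝒜` (for example sheafification) and
`T` an additive functor from `𝒜` to a preadditive category such that `Φ ⋙ T` preserves the coproduct
decompositions of the free abelian presheaves on formal coproducts, and `M` an object of the target.  The
Čech complex of the presheaf `PT Φ T M : V ↦ Hom(T(Φ(ℤ[V])), M)` with respect to a simplicial formal coproduct `E`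
is `Hom(T(Φ(freePre (E _⦋p⦌))), M)` (`theta`), compatibly with the differentials (`theta_dF`).  There is a map `toH`
from `Hom(T(Z p), M)` to the Čech cohomology of `PT Φ T M`.
-/

set_option autoImplicit false

universe u

open CategoryTheory CategoryTheory.Limits Opposite AlgebraicTopology Simplicial

namespace Groth.Agent.Htor.H257.CechCoch

open Groth.Agent.CohtopA.CechInj Groth.Agent.CohtopA.CechLES ResFilt CechFree ExactCouple

universe w v'

variable {C : Type u} [SmallCategory C] {𝒜 : Type w} [Category.{u} 𝒜] [Abelian 𝒜]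
  (Φ : (Cᵒᵖ ⥤ AddCommGrpCat.{u}) ⥤ 𝒜)
  {𝒟 : Type v'} [Category.{u} 𝒟] [Preadditive 𝒟] (T : 𝒜 ⥤ 𝒟) (M : 𝒟)

/-- The presheaf `V ↦ Hom(T(Φ(ℤ[V])), M)`. -/
noncomputable abbrev PT : Cᵒᵖ ⥤ AddCommGrpCat.{u} :=
  (yoneda ⋙ (Functor.whiskeringRight _ _ _).obj AddCommGrpCat.free.{u} ⋙ Φ ⋙
      T).op ⋙ preadditiveYoneda.obj M

/-- `T` preserves the coproduct decompositions of the free sheaves on formal coproducts. -/
def Good : Prop := ∀ W : FormalCoproduct.{u} C,
  Nonempty (IsColimit (Cofan.mk (T.obj (Φ.obj (freePre W))) (fun i => T.map (Φ.map (ιP W i)))))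

/-- Maps out of the free sheaf on a formal coproduct, as families of elements. -/
noncomputable def theta (W : FormalCoproduct.{u} C) :
    (T.obj (Φ.obj (freePre W)) ⟶ M) →+ ev (PT Φ T M) W :=
  (Pi.lift (fun i => AddCommGrpCat.ofHom (Preadditive.leftComp _ (T.map (Φ.map (ιP W i))))) :
      AddCommGrpCat.of (T.obj (Φ.obj (freePre W)) ⟶ M) ⟶ ev (PT Φ T M) W).hom

omit [Abelian 𝒜] in
lemma comp_theta {W : FormalCoproduct.{u} C} (x : T.obj (Φ.obj (freePre W)) ⟶ M) (i : W.I) :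
    comp (PT Φ T M) W i (theta Φ T M W x) = T.map (Φ.map (ιP W i)) ≫ x := by
  have : (Pi.lift (fun i => AddCommGrpCat.ofHom (Preadditive.leftComp _ (T.map (Φ.map (ιP W i))))) :
      AddCommGrpCat.of (T.obj (Φ.obj (freePre W)) ⟶ M) ⟶ ev (PT Φ T M) W) ≫ comp (PT Φ T M) W i =
      AddCommGrpCat.ofHom (Preadditive.leftComp _ (T.map (Φ.map (ιP W i)))) := Pi.lift_π _ _
  exact congr($this x)

lemma theta_fshMap {W W' : FormalCoproduct.{u} C} (φ : W ⟶ W') (x : T.obj (Φ.obj (freePre W')) ⟶ M) :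
    theta Φ T M W (T.map (Φ.map (freeMap φ)) ≫ x) = evMap (PT Φ T M) φ (theta Φ T M W' x) := by
  apply ev_ext
  intro i
  rw [comp_theta, comp_evMap, comp_theta]
  have h1 : T.map (Φ.map (ιP W i)) ≫ T.map (Φ.map (freeMap φ)) ≫ x =
      T.map (Φ.map (Functor.whiskerRight (yoneda.map (φ.φ i)) AddCommGrpCat.free.{u})) ≫ T.map (Φ.map (ιP W' (φ.f i))) ≫ x := by
    rw [← Functor.map_comp_assoc, ← Φ.map_comp, ιP_freeMap, Φ.map_comp, Functor.map_comp_assoc]
  exact h1

lemma theta_dF [Φ.Additive] [T.Additive] (E : SimplicialObject (FormalCoproduct.{u} C)) (p : ℕ)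
    (x : T.obj (Φ.obj (freePre (E _⦋p⦌))) ⟶ M) :
    theta Φ T M _ (T.map (Φ.map (dFree E p)) ≫ x) = dEv (PT Φ T M) E p (theta Φ T M _ x) := by
  rw [dFree_eq, Functor.map_sum, Functor.map_sum, Preadditive.sum_comp, map_sum, dEv, ab_alt_apply]
  refine Finset.sum_congr rfl fun i _ => ?_
  rw [Functor.map_zsmul, Functor.map_zsmul, Preadditive.zsmul_comp, map_zsmul, theta_fshMap]

section Inj

variable {T} (hT : Good Φ T)

include hT in
lemma theta_injective (W : FormalCoproduct.{u} C) : Function.Injective (theta Φ T M W) := by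
  intro x y h
  apply Cofan.IsColimit.hom_ext (hT W).some
  intro i
  have := (comp_theta Φ T M x i).symm.trans ((congrArg _ h).trans (comp_theta Φ T M y i))
  exact this

include hT in
lemma theta_surjective (W : FormalCoproduct.{u} C) : Function.Surjective (theta Φ T M W) := by
  intro y
  refine ⟨Cofan.IsColimit.desc (hT W).some (fun i => comp (PT Φ T M) W i y), ?_⟩
  apply ev_ext
  intro i
  refine (comp_theta Φ T M _ i).trans ?_
  exact Cofan.IsColimit.fac (hT W).some (fun i => comp (PT Φ T M) W i y) i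

end Inj

section Main

variable [Φ.Additive] [PreservesFiniteLimits Φ] [PreservesFiniteColimits Φ] [T.Additive] (E : SimplicialObject (FormalCoproduct.{u} C)) (h : ∀ V : C, Nonempty (PtDegen E V))

/-- The map from `Hom(T(Z p), M)` to the cochains. -/
noncomputable def toCoch (p : ℕ) :
    (T.obj ((res Φ E h).Z p) ⟶ M) →+ ev (PT Φ T M) (E _⦋p⦌) :=
  (theta Φ T M (E _⦋p⦌)).comp (Preadditive.leftComp _ (T.map ((res Φ E h).π p)))

omit [T.Additive] in
lemma toCoch_apply (p : ℕ) (x : T.obj ((res Φ E h).Z p) ⟶ M) :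
    toCoch Φ T M E h p x = theta Φ T M (E _⦋p⦌) (T.map ((res Φ E h).π p) ≫ x) := rfl

lemma dEv_toCoch (p : ℕ) (x : T.obj ((res Φ E h).Z p) ⟶ M) :
    dEv (PT Φ T M) E p (toCoch Φ T M E h p x) = 0 := by
  rw [toCoch_apply, ← theta_dF, ← Functor.map_comp_assoc]
  have : Φ.map (dFree E p) ≫ (res Φ E h).π p = 0 := (res Φ E h).d_π p
  rw [this]
  simp

/-- The map from `Hom(T(Z p), M)` to the cocycles. -/
noncomputable def toCyc (p : ℕ) :
    AddCommGrpCat.of (T.obj ((res Φ E h).Z p) ⟶ M) ⟶ (cx E (PT Φ T M)).cycles p :=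
  (cx E (PT Φ T M)).liftCycles (AddCommGrpCat.ofHom (toCoch Φ T M E h p)) (p + 1) (by simp) (by
    refine ConcreteCategory.hom_ext _ _ fun x => ?_
    have := dEv_toCoch Φ T M E h p x
    rw [← cochain_d] at this
    exact this)

lemma iCycles_toCyc (p : ℕ) (x : T.obj ((res Φ E h).Z p) ⟶ M) :
    (cx E (PT Φ T M)).iCycles p (toCyc Φ T M E h p x) = toCoch Φ T M E h p x := by
  have h1 : toCyc Φ T M E h p ≫ (cx E (PT Φ T M)).iCycles p = AddCommGrpCat.ofHom (toCoch Φ T M E h p) :=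
    (cx E (PT Φ T M)).liftCycles_i _ _ _ _
  exact congr($h1 x)

/-- The map from `Hom(T(Z p), M)` to the Čech cohomology. -/
noncomputable def toH (p : ℕ) :
    (T.obj ((res Φ E h).Z p) ⟶ M) →+ (cx E (PT Φ T M)).homology p :=
  (toCyc Φ T M E h p ≫ (cx E (PT Φ T M)).homologyπ p).hom

variable {T} in
lemma toH_eq_zero (hT : Good Φ T) (p : ℕ) (x : T.obj ((res Φ E h).Z p) ⟶ M) (hx : toH Φ T M E h p x = 0) :
    (p = 0 → T.map ((res Φ E h).π p) ≫ x = 0) ∧
      ∀ q, (hq : p = q + 1) → ∃ y : T.obj ((res Φ E h).F q) ⟶ M,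
        T.map ((res Φ E h).π p) ≫ x = T.map (eqToHom (by rw [hq]) ≫ (res Φ E h).d q) ≫ y := by
  have hx' : (cx E (PT Φ T M)).homologyπ p (toCyc Φ T M E h p x) = 0 := hx
  constructor
  · rintro rfl
    obtain ⟨y, hy⟩ := (Groth.Agent.Etcore.AbHomology.homologyπ_eq_zero_iff (cx E (PT Φ T M)) _ 0
      (CochainComplex.prev_nat_zero)).1 hx'
    have h1 : (cx E (PT Φ T M)).d 0 0 = 0 := (cx E (PT Φ T M)).shape 0 0 (by simp)
    rw [h1, iCycles_toCyc] at hy
    apply theta_injective Φ M hT (E _⦋0⦌)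
    refine Eq.trans hy.symm ?_
    exact (map_zero (theta Φ T M (E _⦋0⦌))).symm
  · rintro q rfl
    obtain ⟨y, hy⟩ := (Groth.Agent.Etcore.AbHomology.homologyπ_eq_zero_iff (cx E (PT Φ T M)) _ q
      (CochainComplex.prev_nat_succ q)).1 hx'
    rw [cochain_d, iCycles_toCyc] at hy
    obtain ⟨y, rfl⟩ := theta_surjective Φ M hT (E _⦋q⦌) y
    refine ⟨y, ?_⟩
    rw [eqToHom_refl, Category.id_comp]
    apply theta_injective Φ M hT (E _⦋q + 1⦌)
    refine Eq.trans hy.symm ?_
    exact (theta_dF Φ T M E q y).symm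

end Main

end Groth.Agent.Htor.H257.CechCoch
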