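import Groth.Agent.Htor.H257.ExactCouple
import Mathlib.Algebra.Homology.DerivedCategory.TStructure
import Mathlib.Algebra.Homology.DerivedCategory.SingleTriangle
import Mathlib.CategoryTheory.Abelian.Exact
import Mathlib.CategoryTheory.Abelian.DiagramLemmas.Four

/-!
# The filtration of `Hom_D(Z, E[n])` attached to a left resolution of `Z`

Let `F (p + 1) → F p` be an exact (in positive degrees) chain complex in an abelian category, and `Z p` the cokernel
of `F (p + 1) → F p`; there are short exact sequences `0 → Z (p + 1) → F p → Z p → 0`.  For `E` in the derived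
category, the connecting maps `δ : Hom(Z (p + 1), E[m]) → Hom(Z p, E[m + 1])` give a filtration of
`Hom(Z 0, E[n])` by the images of `Hom(Z p, E[n - p])`.
-/

set_option autoImplicit false

universe w v u

open CategoryTheory CategoryTheory.Limits DerivedCategory Pretriangulated

namespace Groth.Agent.Htor.H257.ResFilt

open ExactCouple

variable {A : Type u} [Category.{v} A] [Abelian A]

/-- A chain complex indexed by `ℕ`, given by its terms and differentials, exact in positive degrees. -/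
structure Res (A : Type u) [Category.{v} A] [Abelian A] where
  /-- the terms -/
  F : ℕ → A
  /-- the differentials -/
  d : ∀ p, F (p + 1) ⟶ F p
  d_d : ∀ p, d (p + 1) ≫ d p = 0
  exact : ∀ p, (ShortComplex.mk _ _ (d_d p)).Exact

namespace Res

variable (R : Res A)

/-- The syzygies `coker (F (p + 1) ⟶ F p)`. -/
noncomputable def Z (p : ℕ) : A := cokernel (R.d p)

/-- The projection `F p ⟶ Z p`. -/
noncomputable def π (p : ℕ) : R.F p ⟶ R.Z p := cokernel.π (R.d p)

instance (p : ℕ) : Epi (R.π p) := inferInstanceAs (Epi (cokernel.π (R.d p)))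

@[reassoc (attr := simp)]
lemma d_π (p : ℕ) : R.d p ≫ R.π p = 0 := cokernel.condition _

/-- The inclusion `Z (p + 1) ⟶ F p`. -/
noncomputable def i (p : ℕ) : R.Z (p + 1) ⟶ R.F p := cokernel.desc _ (R.d p) (R.d_d p)

@[reassoc (attr := simp)]
lemma π_i (p : ℕ) : R.π (p + 1) ≫ R.i p = R.d p := cokernel.π_desc _ _ _

@[reassoc (attr := simp)]
lemma i_π (p : ℕ) : R.i p ≫ R.π p = 0 := by
  rw [← cancel_epi (R.π (p + 1)), π_i_assoc, d_π, comp_zero]

/-- The short complex `Z (p + 1) ⟶ F p ⟶ Z p`. -/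
noncomputable def S (p : ℕ) : ShortComplex A := ShortComplex.mk (R.i p) (R.π p) (R.i_π p)

instance (p : ℕ) : Mono (R.i p) :=
  (ShortComplex.exact_iff_mono_cokernel_desc (ShortComplex.mk _ _ (R.d_d p))).1 (R.exact p)

lemma S_shortExact (p : ℕ) : (R.S p).ShortExact := by
  refine ShortComplex.ShortExact.mk' ?_ (inferInstanceAs (Mono (R.i p))) (inferInstanceAs (Epi (R.π p)))
  have h : (ShortComplex.mk (R.d p) (R.π p) (R.d_π p)).Exact := ShortComplex.exact_cokernel (R.d p)
  let φ : ShortComplex.mk (R.d p) (R.π p) (R.d_π p) ⟶ R.S p :=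
    { τ₁ := R.π (p + 1)
      τ₂ := 𝟙 _
      τ₃ := 𝟙 _
      comm₁₂ := by simp [S]
      comm₂₃ := by simp [S] }
  have : Epi φ.τ₁ := inferInstanceAs (Epi (R.π (p + 1)))
  have : IsIso φ.τ₂ := inferInstanceAs (IsIso (𝟙 _))
  have : Mono φ.τ₃ := inferInstanceAs (Mono (𝟙 _))
  exact (ShortComplex.exact_iff_of_epi_of_isIso_of_mono φ).1 h

end Res

variable [HasDerivedCategory.{w} A] (R : Res A) (E : DerivedCategory A)

/-- The functor `A ⥤ D(A)`. -/
noncomputable abbrev L : A ⥤ DerivedCategory A := singleFunctor A 0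

/-- The connecting morphism of the short exact sequence `0 → Z (p + 1) → F p → Z p → 0`. -/
noncomputable def sδ (p : ℕ) : L.obj (R.Z p) ⟶ (shiftFunctor (DerivedCategory A) (1 : ℤ)).obj (L.obj (R.Z (p + 1))) :=
  (R.S_shortExact p).singleδ

lemma tri_distinguished (p : ℕ) :
    Triangle.mk (L.map (R.i p)) (L.map (R.π p)) (sδ R p) ∈ distTriang (DerivedCategory A) :=
  (R.S_shortExact p).singleTriangle_distinguished

lemma π_sδ (p : ℕ) : L.map (R.π p) ≫ sδ R p = 0 :=
  comp_distTriang_mor_zero₂₃ _ (tri_distinguished R p)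

lemma sδ_i (p : ℕ) : sδ R p ≫ (shiftFunctor (DerivedCategory A) (1 : ℤ)).map (L.map (R.i p)) = 0 :=
  comp_distTriang_mor_zero₃₁ _ (tri_distinguished R p)

/-- The connecting map `Hom(Z (p + 1), E[m]) → Hom(Z p, E[m'])` for `m + 1 = m'`. -/
noncomputable def conn (p : ℕ) (m m' : ℤ) (h : m + 1 = m') :
    (L.obj (R.Z (p + 1)) ⟶ (shiftFunctor (DerivedCategory A) m).obj E) →+
      (L.obj (R.Z p) ⟶ (shiftFunctor (DerivedCategory A) m').obj E) where
  toFun x := sδ R p ≫ x⟦(1 : ℤ)⟧' ≫ (shiftFunctorAdd' (DerivedCategory A) m 1 m' h).inv.app E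
  map_zero' := by simp
  map_add' x y := by simp

lemma conn_apply (p : ℕ) (m m' : ℤ) (h : m + 1 = m')
    (x : L.obj (R.Z (p + 1)) ⟶ (shiftFunctor (DerivedCategory A) m).obj E) :
    conn R E p m m' h x = sδ R p ≫ x⟦(1 : ℤ)⟧' ≫
      (shiftFunctorAdd' (DerivedCategory A) m 1 m' h).inv.app E := rfl

/-- `π^* ∘ δ = 0`. -/
lemma π_conn (p : ℕ) (m m' : ℤ) (h : m + 1 = m')
    (x : L.obj (R.Z (p + 1)) ⟶ (shiftFunctor (DerivedCategory A) m).obj E) :
    L.map (R.π p) ≫ conn R E p m m' h x = 0 := by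
  rw [conn_apply, ← Category.assoc, π_sδ, zero_comp]

/-- `δ ∘ i^* = 0`. -/
lemma conn_i (p : ℕ) (m m' : ℤ) (h : m + 1 = m')
    (y : L.obj (R.F p) ⟶ (shiftFunctor (DerivedCategory A) m).obj E) :
    conn R E p m m' h (L.map (R.i p) ≫ y) = 0 := by
  rw [conn_apply, Functor.map_comp, Category.assoc, ← Category.assoc, sδ_i, zero_comp]

/-- Exactness: what is killed by `π^*` comes from `δ`. -/
lemma exists_conn (p : ℕ) (m m' : ℤ) (h : m + 1 = m')
    (x : L.obj (R.Z p) ⟶ (shiftFunctor (DerivedCategory A) m').obj E) (hx : L.map (R.π p) ≫ x = 0) :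
    ∃ y, conn R E p m m' h y = x := by
  obtain ⟨g, hg⟩ : ∃ g : (shiftFunctor (DerivedCategory A) (1 : ℤ)).obj (L.obj (R.Z (p + 1))) ⟶
      (shiftFunctor (DerivedCategory A) m').obj E, x = sδ R p ≫ g :=
    Triangle.yoneda_exact₃ _ (tri_distinguished R p) x hx
  obtain ⟨y, hy⟩ := (shiftFunctor (DerivedCategory A) (1 : ℤ)).map_surjective
    (g ≫ (shiftFunctorAdd' (DerivedCategory A) m 1 m' h).hom.app E)
  refine ⟨y, ?_⟩
  rw [conn_apply, hy, Category.assoc, Iso.hom_inv_id_app, Category.comp_id]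
  exact hg.symm

variable (n : ℤ)

/-- The groups `Hom(Z p, E[n - p])`. -/
abbrev D (p : ℕ) : Type w := L.obj (R.Z p) ⟶ (shiftFunctor (DerivedCategory A) (n - p)).obj E

/-- The connecting maps for the groups `D p`. -/
noncomputable def δ (p : ℕ) : D R E n (p + 1) →+ D R E n p :=
  conn R E p (n - (p + 1 : ℕ)) (n - p) (by push_cast; ring)

lemma it_i (p : ℕ) (y : L.obj (R.F p) ⟶ (shiftFunctor (DerivedCategory A) (n - (p + 1 : ℕ))).obj E) :
    it (δ R E n) (p + 1) (L.map (R.i p) ≫ y) = 0 := by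
  rw [it_succ]
  have : δ R E n p (L.map (R.i p) ≫ y) = 0 := conn_i R E p _ _ _ y
  rw [this, map_zero]

lemma mem_G_one (x : D R E n 0) : x ∈ G (δ R E n) 1 ↔ L.map (R.π 0) ≫ x = 0 := by
  rw [ExactCouple.mem_G_one]
  constructor
  · rintro ⟨y, rfl⟩
    exact π_conn R E 0 _ _ _ y
  · intro hx
    exact exists_conn R E 0 _ _ _ x hx

/-- The groups `D p` vanish for large `p`. -/
lemma subsingleton_D (a : ℤ) [E.IsGE a] (p : ℕ) (hp : n - p < a) : Subsingleton (D R E n p) := by
  refine ⟨fun x y => ?_⟩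
  have h1 : ((shiftFunctor (DerivedCategory A) (n - p)).obj E).IsGE (a - (n - p)) :=
    TStructure.t.isGE_shift E a (n - p) (a - (n - p)) (by ring)
  have h2 : (L.obj (R.Z p)).IsLE 0 := inferInstance
  have h3 : ∀ z : D R E n p, z = 0 := fun z =>
    TStructure.t.zero z 0 (a - (n - p)) (by linarith)
  rw [h3 x, h3 y]

/-- The graded pieces are subquotients of any group `T` to which `Hom(Z p, E[n - p])` maps, with kernel the elements
whose image in `Hom(F p, E[n - p])` is zero if `p = 0`, or is in the image of `Hom(F (p - 1), E[n - p])` if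
`p > 0`. -/
theorem isSubquotient_gr (p : ℕ) {T : Type w} [AddCommGroup T] [Module ℤ T] (f : D R E n p →+ T)
    (h0 : ∀ x, f x = 0 → (p = 0 → L.map (R.π p) ≫ x = 0) ∧
      ∀ q, (hq : p = q + 1) → ∃ y : L.obj (R.F q) ⟶ (shiftFunctor (DerivedCategory A) (n - p)).obj E,
        L.map (R.π p) ≫ x = L.map (eqToHom (by rw [hq]) ≫ R.d q) ≫ y) :
    HTor.IsSubquotient ℤ (HTor.grDesc (G (δ R E n)) p) T := by
  refine ExactCouple.isSubquotient_gr (δ R E n) p f ?_
  intro x hx
  obtain ⟨h1, h2⟩ := h0 x hx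
  rcases p with _ | p
  · obtain ⟨z, hz⟩ := exists_conn R E 0 (n - (0 + 1 : ℕ)) (n - (0 : ℕ)) (by push_cast; ring) x (h1 rfl)
    exact ⟨0, z, map_zero _, by rw [zero_add]; exact hz.symm⟩
  · obtain ⟨y, hy⟩ := h2 p rfl
    have h3 : L.map (R.π (p + 1)) ≫ (x - L.map (R.i p) ≫ y) = 0 := by
      rw [Preadditive.comp_sub, hy, ← Functor.map_comp_assoc, Res.π_i]
      simp
    obtain ⟨z, hz⟩ := exists_conn R E (p + 1) (n - ((p + 1) + 1 : ℕ)) (n - (p + 1 : ℕ)) (by push_cast; ring) _ h3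
    refine ⟨L.map (R.i p) ≫ y, z, it_i R E n p y, ?_⟩
    have h4 : δ R E n (p + 1) z = x - L.map (R.i p) ≫ y := hz
    rw [h4]
    abel

end Groth.Agent.Htor.H257.ResFilt
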