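import Groth.Agent.CohtopA.CechLES
import Groth.Agent.CohtopB.FreeSheafHom
import Groth.Agent.Htor.H257.ResFilt

/-!
# The free Čech resolution

`C` is a small category, `E` a simplicial formal coproduct of objects of `C` (for example the Čech object of a family
of objects).  The free presheaf `freePre W` on a formal coproduct `W` is the coproduct of the free presheaves
`yoneda.obj (W.obj i) ⋙ free` (`isColimitP`).  Let `Φ` be an exact functor from abelian presheaves on `C` to an abelian
category which preserves colimits (for example sheafification).  If `E` has pointwise extra degeneracies the chain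
complex `Φ (freePre (E _⦋p⦌))` is exact in positive degrees (`res`).  For `Φ` the sheafification functor for a
topology `J`, its cokernel is `freeSheaf J V` if `E` has an augmentation `a` to `V` such that `0 → F(V) → F(E₀) → F(E₁)`
is exact for all abelian sheaves `F` (`isColimitε`).
-/

set_option autoImplicit false

universe u

open CategoryTheory CategoryTheory.Limits Opposite AlgebraicTopology Simplicial

namespace Groth.Agent.Htor.H257.CechFree

open Groth.Agent.CohtopA.CechInj Groth.Agent.CohtopA.CechLES ResFilt Groth.Agent.CohtopB.FreeSheafHom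

variable {C : Type u} [SmallCategory C]

section Presheaf

variable (W W' : FormalCoproduct.{u} C)

/-- The inclusion of the free presheaf on `W.obj i` in the free presheaf on `W`. -/
noncomputable def ιP (i : W.I) : yoneda.obj (W.obj i) ⋙ AddCommGrpCat.free.{u} ⟶ freePre W :=
  presheafHomMk (P := freePre W) (Groth.Agent.CohtopA.CechInj.gen (V := op (W.obj i)) (Pt.mk i (𝟙 (W.obj i))))

lemma ιP_gen (i : W.I) : ((ιP W i).app (op (W.obj i))).hom (FreeAbelianGroup.of (𝟙 (W.obj i))) =
    Groth.Agent.CohtopA.CechInj.gen (V := op (W.obj i)) (Pt.mk i (𝟙 (W.obj i))) :=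
  presheafHomMk_app_of _

variable {W}

/-- The morphism from the free presheaf on `W` given by a family of sections. -/
noncomputable def descP {P : Cᵒᵖ ⥤ AddCommGrpCat.{u}} (s : ∀ i, P.obj (op (W.obj i))) : freePre W ⟶ P :=
  toHom P W (ev_exists P s).choose

lemma ιP_toHom {P : Cᵒᵖ ⥤ AddCommGrpCat.{u}} (x : ev P W) (i : W.I) :
    ιP W i ≫ toHom P W x = presheafHomMk (comp P W i x) := by
  apply presheafHom_ext
  rw [presheafHomMk_app_of]
  change (((toHom P W x).app (op (W.obj i))).hom) (((ιP W i).app (op (W.obj i))).hom _) = _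
  rw [ιP_gen]
  refine (toHom_app_gen P W x _ _).trans ?_
  have : (Pt.mk i (𝟙 (W.obj i)) : Pt W (W.obj i)).hom = 𝟙 _ := Pt.mk_hom _ _
  change P.map (Pt.mk i (𝟙 (W.obj i)) : Pt W (W.obj i)).hom.op _ = _
  rw [this]
  simp
  rfl

lemma ιP_hom_ext {P : Cᵒᵖ ⥤ AddCommGrpCat.{u}} {f g : freePre W ⟶ P} (h : ∀ i, ιP W i ≫ f = ιP W i ≫ g) :
    f = g := by
  obtain ⟨x, rfl⟩ := (toHom_bijective P W).2 f
  obtain ⟨y, rfl⟩ := (toHom_bijective P W).2 g
  congr 1
  apply ev_ext
  intro i
  have h1 := h i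
  rw [ιP_toHom, ιP_toHom] at h1
  rw [← presheafHomMk_app_of (comp P W i x), h1, presheafHomMk_app_of]

lemma exists_descP {P : Cᵒᵖ ⥤ AddCommGrpCat.{u}} (f : ∀ i, yoneda.obj (W.obj i) ⋙ AddCommGrpCat.free.{u} ⟶ P) :
    ∃ g : freePre W ⟶ P, ∀ i, ιP W i ≫ g = f i := by
  obtain ⟨x, hx⟩ := ev_exists P (W := W) (fun i => ((f i).app (op (W.obj i))).hom (FreeAbelianGroup.of (𝟙 _)))
  refine ⟨toHom P W x, fun i => ?_⟩
  rw [ιP_toHom, hx]
  apply presheafHom_ext
  rw [presheafHomMk_app_of]

variable (W) in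
/-- The free presheaf on `W` is the coproduct of the free presheaves on the `W.obj i`. -/
noncomputable def isColimitP : IsColimit (Cofan.mk (freePre W) (ιP W)) :=
  Cofan.IsColimit.mk _ (fun s => (exists_descP s.inj).choose) (fun s i => (exists_descP s.inj).choose_spec i)
    (fun s _ hm => ιP_hom_ext fun i => (hm i).trans ((exists_descP s.inj).choose_spec i).symm)

variable {W'}

lemma ιP_freeMap (φ : W ⟶ W') (i : W.I) :
    ιP W i ≫ freeMap φ = Functor.whiskerRight (yoneda.map (φ.φ i)) AddCommGrpCat.free.{u} ≫ ιP W' (φ.f i) := by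
  apply presheafHom_ext
  change ((freeMap φ).app (op (W.obj i))).hom (((ιP W i).app (op (W.obj i))).hom _) =
    ((ιP W' (φ.f i)).app (op (W.obj i))).hom (FreeAbelianGroup.map _ (FreeAbelianGroup.of (𝟙 (W.obj i))))
  rw [ιP_gen, FreeAbelianGroup.map_of_apply]
  refine (freeMap_app_gen φ _ _).trans ?_
  change Groth.Agent.CohtopA.CechInj.gen (V := op (W.obj i)) (Pt.push φ (Pt.mk i (𝟙 (W.obj i)))) = 
    FreeAbelianGroup.lift _ (FreeAbelianGroup.of (𝟙 (W.obj i) ≫ φ.φ i))
  rw [FreeAbelianGroup.lift_apply_of]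
  refine Eq.trans ?_ (freePre_map_gen (W := W') (V := op (W'.obj (φ.f i))) (V' := op (W.obj i))
    ((𝟙 (W.obj i) ≫ φ.φ i).op) (Pt.mk (φ.f i) (𝟙 (W'.obj (φ.f i))))).symm
  congr 1
  refine (Pt.push_mk φ i (𝟙 _)).trans ?_
  refine Eq.trans ?_ (Pt.pull_mk _ _ _).symm
  congr 1
  simp

/-- The augmentation of the free presheaf resolution. -/
noncomputable def εP {V : C} (a : W ⟶ (FormalCoproduct.incl C).obj V) :
    freePre W ⟶ yoneda.obj V ⋙ AddCommGrpCat.free.{u} :=
  (exists_descP (W := W) (P := yoneda.obj V ⋙ AddCommGrpCat.free.{u})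
    (fun i => Functor.whiskerRight (yoneda.map (a.φ i)) AddCommGrpCat.free.{u})).choose

lemma ιP_εP {V : C} (a : W ⟶ (FormalCoproduct.incl C).obj V) (i : W.I) :
    ιP W i ≫ εP a = Functor.whiskerRight (yoneda.map (a.φ i)) AddCommGrpCat.free.{u} :=
  (exists_descP (W := W) (P := yoneda.obj V ⋙ AddCommGrpCat.free.{u})
    (fun i => Functor.whiskerRight (yoneda.map (a.φ i)) AddCommGrpCat.free.{u})).choose_spec i

end Presheaf

section Abstract

universe w

variable {𝒜 : Type w} [Category.{u} 𝒜] [Abelian 𝒜] (Φ : (Cᵒᵖ ⥤ AddCommGrpCat.{u}) ⥤ 𝒜)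

/-- The image under `Φ` of the free presheaf on a formal coproduct is a coproduct. -/
noncomputable def isColimitΦ [PreservesColimitsOfSize.{u, u} Φ] (W : FormalCoproduct.{u} C) :
    IsColimit (Cofan.mk (Φ.obj (freePre W)) (fun i => Φ.map (ιP W i))) :=
  (isColimitMapCoconeCofanMkEquiv _ _ _) (isColimitOfPreserves Φ (isColimitP W))

variable (E : SimplicialObject (FormalCoproduct.{u} C))

/-- The free Čech resolution. -/
noncomputable def res [Φ.Additive] [PreservesFiniteLimits Φ] [PreservesFiniteColimits Φ]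
    (h : ∀ V : C, Nonempty (PtDegen E V)) : Res 𝒜 where
  F p := Φ.obj (freePre (E _⦋p⦌))
  d p := Φ.map (dFree E p)
  d_d p := by
    rw [← Functor.map_comp, dFree_comp, Functor.map_zero]
  exact p := (freeSC_exact h p).map Φ

end Abstract

section Sheaf

variable (J : GrothendieckTopology C)

/-- The free abelian sheaf on a formal coproduct. -/
noncomputable abbrev fsh (W : FormalCoproduct.{u} C) : Sheaf J AddCommGrpCat.{u} :=
  (presheafToSheaf J AddCommGrpCat.{u}).obj (freePre W)

/-- Functoriality of `fsh`. -/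
noncomputable abbrev fshMap {W W' : FormalCoproduct.{u} C} (φ : W ⟶ W') : fsh J W ⟶ fsh J W' :=
  (presheafToSheaf J AddCommGrpCat.{u}).map (freeMap φ)

/-- The inclusion of the free sheaf on `W.obj i` in the free sheaf on `W`. -/
noncomputable abbrev ιS (W : FormalCoproduct.{u} C) (i : W.I) : CohCx.freeSheaf J (W.obj i) ⟶ fsh J W :=
  (presheafToSheaf J AddCommGrpCat.{u}).map (ιP W i)

/-- The free sheaf on `W` is the coproduct of the free sheaves on the `W.obj i`. -/
noncomputable def isColimitS (W : FormalCoproduct.{u} C) : IsColimit (Cofan.mk (fsh J W) (ιS J W)) :=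
  (isColimitMapCoconeCofanMkEquiv _ _ _) (isColimitOfPreserves (presheafToSheaf J AddCommGrpCat.{u}) (isColimitP W))

lemma ιS_fshMap {W W' : FormalCoproduct.{u} C} (φ : W ⟶ W') (i : W.I) :
    ιS J W i ≫ fshMap J φ = CohCx.freeSheafMap J (φ.φ i) ≫ ιS J W' (φ.f i) := by
  rw [← Functor.map_comp, ιP_freeMap, Functor.map_comp]

variable {J} in
lemma fsh_hom_ext {W : FormalCoproduct.{u} C} {G : Sheaf J AddCommGrpCat.{u}} {f g : fsh J W ⟶ G}
    (h : ∀ i, ιS J W i ≫ f = ιS J W i ≫ g) : f = g :=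
  Cofan.IsColimit.hom_ext (isColimitS J W) _ _ h

variable (E : SimplicialObject (FormalCoproduct.{u} C))

/-- The differentials. -/
noncomputable abbrev dF (p : ℕ) : fsh J (E _⦋p + 1⦌) ⟶ fsh J (E _⦋p⦌) :=
  (presheafToSheaf J AddCommGrpCat.{u}).map (dFree E p)

lemma dF_eq (p : ℕ) : dF J E p = ∑ i : Fin (p + 2), (-1 : ℤ) ^ (i : ℕ) • fshMap J (E.δ i) := by
  change (presheafToSheaf J AddCommGrpCat.{u}).map (dFree E p) = _
  rw [dFree_eq, Functor.map_sum]
  simp only [Functor.map_zsmul]

end Sheaf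

section Sections

variable {J : GrothendieckTopology C}

/-- Maps out of the free sheaf on a formal coproduct, as families of sections. -/
noncomputable def evS (W : FormalCoproduct.{u} C) (G : Sheaf J AddCommGrpCat.{u}) : (fsh J W ⟶ G) →+ ev G.obj W :=
  (Pi.lift (fun i => AddCommGrpCat.ofHom
    ((homEquivSections (W.obj i) G).toAddMonoidHom.comp (Preadditive.leftComp G (ιS J W i)))) :
      AddCommGrpCat.of (fsh J W ⟶ G) ⟶ ev G.obj W).hom

lemma comp_evS {W : FormalCoproduct.{u} C} {G : Sheaf J AddCommGrpCat.{u}} (k : fsh J W ⟶ G) (i : W.I) :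
    comp G.obj W i (evS W G k) = homEquivSections (W.obj i) G (ιS J W i ≫ k) := by
  have : (Pi.lift (fun i => AddCommGrpCat.ofHom
    ((homEquivSections (W.obj i) G).toAddMonoidHom.comp (Preadditive.leftComp G (ιS J W i)))) :
      AddCommGrpCat.of (fsh J W ⟶ G) ⟶ ev G.obj W) ≫ comp G.obj W i = AddCommGrpCat.ofHom
    ((homEquivSections (W.obj i) G).toAddMonoidHom.comp (Preadditive.leftComp G (ιS J W i))) :=
    Pi.lift_π _ _
  exact congr($this k)

lemma evS_injective {W : FormalCoproduct.{u} C} {G : Sheaf J AddCommGrpCat.{u}} :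
    Function.Injective (evS W G) := by
  intro k l h
  apply fsh_hom_ext
  intro i
  apply (homEquivSections (W.obj i) G).injective
  rw [← comp_evS, ← comp_evS, h]

lemma evS_fshMap {W W' : FormalCoproduct.{u} C} (φ : W ⟶ W') {G : Sheaf J AddCommGrpCat.{u}} (k : fsh J W' ⟶ G) :
    evS W G (fshMap J φ ≫ k) = evMap G.obj φ (evS W' G k) := by
  apply ev_ext
  intro i
  rw [comp_evS, comp_evMap, comp_evS]
  have h1 : ιS J W i ≫ fshMap J φ ≫ k = CohCx.freeSheafMap J (φ.φ i) ≫ ιS J W' (φ.f i) ≫ k := by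
    rw [← Category.assoc, ιS_fshMap, Category.assoc]
  rw [h1]
  exact freeSheafMap_comp_app_gen (J := J) (φ.φ i) (ιS J W' (φ.f i) ≫ k)

lemma evS_dF (E : SimplicialObject (FormalCoproduct.{u} C)) (p : ℕ) {G : Sheaf J AddCommGrpCat.{u}}
    (k : fsh J (E _⦋p⦌) ⟶ G) : evS _ G (dF J E p ≫ k) = dEv G.obj E p (evS _ G k) := by
  rw [dF_eq, Preadditive.sum_comp, map_sum, dEv, ab_alt_apply]
  refine Finset.sum_congr rfl fun i _ => ?_
  rw [Preadditive.zsmul_comp, map_zsmul, evS_fshMap]

end Sections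

section Aug

variable {J : GrothendieckTopology C} {E : SimplicialObject (FormalCoproduct.{u} C)} {V : C}
  (a : E _⦋0⦌ ⟶ (FormalCoproduct.incl C).obj V)

variable (J) in
/-- The augmentation of the free Čech resolution. -/
noncomputable abbrev ε : fsh J (E _⦋0⦌) ⟶ CohCx.freeSheaf J V :=
  (presheafToSheaf J AddCommGrpCat.{u}).map (εP a)

lemma ιS_ε (i : (E _⦋0⦌).I) : ιS J _ i ≫ ε J a = CohCx.freeSheafMap J (a.φ i) := by
  rw [← Functor.map_comp, ιP_εP]
  rfl

lemma evS_ε {G : Sheaf J AddCommGrpCat.{u}} (k : CohCx.freeSheaf J V ⟶ G) :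
    evS _ G (ε J a ≫ k) = augMap a G.obj (homEquivSections V G k) := by
  apply ev_ext
  intro i
  rw [comp_evS, comp_augMap]
  have h1 : ιS J _ i ≫ ε J a ≫ k = CohCx.freeSheafMap J (a.φ i) ≫ k := by
    rw [← Category.assoc, ιS_ε]
    rfl
  rw [h1]
  exact freeSheafMap_comp_app_gen (J := J) (a.φ i) k

variable (hA : ∀ G : Sheaf J AddCommGrpCat.{u}, AugExact a G.obj)

include hA in
lemma dF_ε : dF J E 0 ≫ ε J a = 0 := by
  apply evS_injective
  rw [evS_dF, map_zero]
  have h1 := evS_ε a (𝟙 (CohCx.freeSheaf J V))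
  rw [Category.comp_id] at h1
  rw [h1]
  exact (hA _).mem _

/-- The augmentation is a cokernel. -/
noncomputable def isColimitε : IsColimit (CokernelCofork.ofπ (ε J a) (dF_ε a hA)) := by
  have key : ∀ {G : Sheaf J AddCommGrpCat.{u}} (k : fsh J (E _⦋0⦌) ⟶ G) (_ : dF J E 0 ≫ k = 0),
      ∃ l : CohCx.freeSheaf J V ⟶ G, ε J a ≫ l = k := by
    intro G k hk
    obtain ⟨y, hy⟩ := (hA G).lift (evS _ G k) (by rw [← evS_dF, hk, map_zero])
    refine ⟨(homEquivSections V G).symm y, ?_⟩
    apply evS_injective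
    rw [evS_ε, AddEquiv.apply_symm_apply, hy]
  refine CokernelCofork.IsColimit.ofπ _ _ (fun k hk => (key k hk).choose) (fun k hk => (key k hk).choose_spec) ?_
  intro G k hk l hl
  have h2 := (key k hk).choose_spec
  have h3 : ε J a ≫ l = ε J a ≫ (key k hk).choose := hl.trans h2.symm
  apply (homEquivSections V G).injective
  apply (hA G).inj
  rw [← evS_ε, ← evS_ε, h3]

end Aug

end Groth.Agent.Htor.H257.CechFree
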