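import Groth.Agent.Htor.H257.CechCoch
import Groth.Agent.CohtopB.DCoprod

/-!
# The Čech-to-hypercohomology filtration

Let `Φ` be an exact functor preserving colimits from abelian presheaves on `C` to a Grothendieck abelian category
`𝒜` (for example sheafification), `K` an object of `D(𝒜)` bounded below, `E` a simplicial formal coproduct of objects
of `C` with pointwise extra degeneracies and with an augmentation `ε` whose image is a cokernel.
`Hom_D(Φ(F_p), K[m])` is the group of `p`-cochains of the Čech complex of the presheaf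
`V ↦ Hom_D(Φ(ℤ[V]), K[m])`, compatibly with the differentials (`CechCoch`).
The filtration of `ResFilt` gives the convergence of the Čech-to-hypercohomology spectral sequence
(`exists_filtration`).
-/

set_option autoImplicit false

universe u

open CategoryTheory CategoryTheory.Limits Opposite AlgebraicTopology Simplicial

namespace Groth.Agent.Htor.H257.CechHyper

open Groth.Agent.CohtopA.CechInj Groth.Agent.CohtopA.CechLES CechFree ExactCouple CechCoch

section Abstract

universe w v'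

variable {A : Type (u + 1)} [Category.{u} A] [Abelian A] [IsGrothendieckAbelian.{u} A] [HasDerivedCategory.{w} A]

/-- Coproducts in a Grothendieck abelian category are coproducts in the derived category. -/
theorem isColimit_singleFunctor {I : Type u} {f : I → A} {X : A} (ι : ∀ i, f i ⟶ X)
    (hc : IsColimit (Cofan.mk X ι)) :
    Nonempty (IsColimit (Cofan.mk ((DerivedCategory.singleFunctor A 0).obj X)
      (fun i => (DerivedCategory.singleFunctor A 0).map (ι i)))) := by
  have h1 := Groth.Agent.CohtopB.DCoprod.hasExactCoproducts_of_isGrothendieckAbelian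
    (A := A) I
  have h2 := Groth.Agent.CohtopB.DCoprod.preservesColimitsOfShape_singleFunctor
    (A := A) (ι := I) 0
  exact ⟨(isColimitMapCoconeCofanMkEquiv _ _ _) (isColimitOfPreserves (DerivedCategory.singleFunctor A 0) hc)⟩

end Abstract

variable {C : Type u} [SmallCategory C] {𝒜 : Type (u + 1)} [Category.{u} 𝒜] [Abelian 𝒜]
  [IsGrothendieckAbelian.{u} 𝒜] [HasDerivedCategory.{u} 𝒜]
  (Φ : (Cᵒᵖ ⥤ AddCommGrpCat.{u}) ⥤ 𝒜) [Φ.Additive] [PreservesFiniteLimits Φ] [PreservesColimitsOfSize.{u, u} Φ]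

omit [Φ.Additive] [PreservesFiniteLimits Φ] in
theorem good : Good Φ (DerivedCategory.singleFunctor 𝒜 0) :=
  fun W => isColimit_singleFunctor _ (isColimitΦ Φ W)

variable (K : DerivedCategory 𝒜) (n : ℤ)
  (E : SimplicialObject (FormalCoproduct.{u} C)) (h : ∀ V : C, Nonempty (PtDegen E V))

/-- Composition with an isomorphism on the left and with an identification of shifts on the right. -/
noncomputable def homEquiv {X Y : DerivedCategory 𝒜} (e : X ≅ Y) {m m' : ℤ} (hm : m = m') :
    (X ⟶ (shiftFunctor (DerivedCategory 𝒜) m).obj K) ≃+ (Y ⟶ (shiftFunctor (DerivedCategory 𝒜) m').obj K) where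
  toFun x := e.inv ≫ x ≫ eqToHom (by rw [hm])
  invFun y := e.hom ≫ y ≫ eqToHom (by rw [hm])
  left_inv x := by simp
  right_inv y := by simp
  map_add' x y := by simp

omit [IsGrothendieckAbelian.{u} 𝒜] in
lemma homEquiv_symm_apply {X Y : DerivedCategory 𝒜} (e : X ≅ Y) {m m' : ℤ} (hm : m = m')
    (y : Y ⟶ (shiftFunctor (DerivedCategory 𝒜) m').obj K) :
    (homEquiv K e hm).symm y = e.hom ≫ y ≫ eqToHom (by rw [hm]) := rfl

omit [IsGrothendieckAbelian.{u} 𝒜] in
lemma comp_homEquiv_symm {F X Y : DerivedCategory 𝒜} (π : F ⟶ X) (e : X ≅ Y) (ε : F ⟶ Y) (hπ : π ≫ e.hom = ε)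
    {m m' : ℤ} (hm : m = m') (y : Y ⟶ (shiftFunctor (DerivedCategory 𝒜) m').obj K) :
    π ≫ (homEquiv K e hm).symm y = 0 ↔ ε ≫ y = 0 := by
  subst hm
  rw [homEquiv_symm_apply, ← hπ]
  simp

include h in
/-- Convergence of the Čech-to-hypercohomology spectral sequence for a simplicial formal coproduct `E` with pointwise
extra degeneracies and an augmentation `ε` which is a cokernel. -/
theorem exists_filtration (a : ℤ) [K.IsGE a] {Z : 𝒜} (ε : Φ.obj (freePre (E _⦋0⦌)) ⟶ Z)
    (hw : Φ.map (dFree E 0) ≫ ε = 0) (hε : IsColimit (CokernelCofork.ofπ ε hw)) :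
    ∃ (N : ℕ) (G : ℕ → Submodule ℤ ((DerivedCategory.singleFunctor 𝒜 0).obj Z ⟶
        (shiftFunctor (DerivedCategory 𝒜) n).obj K)),
      Antitone G ∧ G 0 = ⊤ ∧ G N = ⊥ ∧
      (∀ x, x ∈ G 1 ↔ (DerivedCategory.singleFunctor 𝒜 0).map ε ≫ x = 0) ∧
      ∀ p : ℕ, HTor.IsSubquotient ℤ (HTor.grDesc G p)
        ((cx E (PT Φ (DerivedCategory.singleFunctor 𝒜 0)
          ((shiftFunctor (DerivedCategory 𝒜) (n - p)).obj K))).homology p) := by
  have hL : PreservesFiniteColimits Φ := inferInstance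
  let i : (res Φ E h).Z 0 ≅ Z := (cokernelIsCokernel (Φ.map (dFree E 0))).coconePointUniqueUpToIso hε
  have hi : (res Φ E h).π 0 ≫ i.hom = ε :=
    (cokernelIsCokernel (Φ.map (dFree E 0))).comp_coconePointUniqueUpToIso_hom hε WalkingParallelPair.one
  let e := homEquiv K ((DerivedCategory.singleFunctor 𝒜 0).mapIso i)
    (show n - (0 : ℕ) = n by simp)
  refine ⟨(n - a + 1).toNat, Gt e (G (ResFilt.δ (res Φ E h) K n)), Gt_antitone _ _ (G_antitone _),
    Gt_eq_top _ _ (G_zero _), ?_, ?_, ?_⟩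
  · exact Gt_eq_bot _ _ (G_eq_bot _ (ResFilt.subsingleton_D (res Φ E h) K n a _ (by omega)))
  · intro x
    rw [mem_Gt, ResFilt.mem_G_one (res Φ E h) K n]
    refine comp_homEquiv_symm K ((DerivedCategory.singleFunctor 𝒜 0).map ((res Φ E h).π 0))
      ((DerivedCategory.singleFunctor 𝒜 0).mapIso i) ((DerivedCategory.singleFunctor 𝒜 0).map ε) ?_ _ x
    rw [Functor.mapIso_hom, ← Functor.map_comp, hi]
  · intro p
    refine Gt_isSubquotient _ _ ?_
    refine ResFilt.isSubquotient_gr (res Φ E h) K n p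
      (toH Φ (DerivedCategory.singleFunctor 𝒜 0)
        ((shiftFunctor (DerivedCategory 𝒜) (n - p)).obj K) E h p) ?_
    intro x hx
    exact toH_eq_zero Φ _ E h (good Φ) p x hx

/-- The components of an augmentation. -/
def comps {W : FormalCoproduct.{u} C} {V : C} (a : W ⟶ (FormalCoproduct.incl C).obj V) (i : W.I) : W.obj i ⟶ V :=
  a.φ i

lemma ιP_εP' {W : FormalCoproduct.{u} C} {V : C} (a : W ⟶ (FormalCoproduct.incl C).obj V) (i : W.I) :
    ιP W i ≫ εP a = Functor.whiskerRight (yoneda.map (comps a i)) AddCommGrpCat.free.{u} :=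
  ιP_εP a i

include h in
/-- Convergence of the Čech-to-hypercohomology spectral sequence, with the first step of the filtration described by
restriction maps. -/
theorem exists_filtration' (b : ℤ) [K.IsGE b] {V : C} (a : E _⦋0⦌ ⟶ (FormalCoproduct.incl C).obj V)
    (hw : Φ.map (dFree E 0) ≫ Φ.map (εP a) = 0) (hε : IsColimit (CokernelCofork.ofπ (Φ.map (εP a)) hw))
    {κ : Type*} {Y : κ → C} (f : ∀ k, Y k ⟶ V)
    (hf : ∀ i : (E _⦋0⦌).I, ∃ (k : κ) (g : (E _⦋0⦌).obj i ⟶ Y k), g ≫ f k = comps a i)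
    (hf' : ∀ k : κ, ∃ (i : (E _⦋0⦌).I) (g : Y k ⟶ (E _⦋0⦌).obj i), g ≫ comps a i = f k) :
    ∃ (N : ℕ) (G : ℕ → Submodule ℤ ((DerivedCategory.singleFunctor 𝒜 0).obj
        (Φ.obj (yoneda.obj V ⋙ AddCommGrpCat.free.{u})) ⟶ (shiftFunctor (DerivedCategory 𝒜) n).obj K)),
      Antitone G ∧ G 0 = ⊤ ∧ G N = ⊥ ∧
      (∀ x, x ∈ G 1 ↔ ∀ k, (DerivedCategory.singleFunctor 𝒜 0).map
        (Φ.map (Functor.whiskerRight (yoneda.map (f k)) AddCommGrpCat.free.{u})) ≫ x = 0) ∧
      ∀ p : ℕ, HTor.IsSubquotient ℤ (HTor.grDesc G p)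
        ((cx E (PT Φ (DerivedCategory.singleFunctor 𝒜 0)
          ((shiftFunctor (DerivedCategory 𝒜) (n - p)).obj K))).homology p) := by
  obtain ⟨N, G, h1, h2, h3, h4, h5⟩ := exists_filtration Φ K n E h b (Φ.map (εP a)) hw hε
  refine ⟨N, G, h1, h2, h3, ?_, h5⟩
  intro x
  rw [h4]
  have key : ∀ i, (DerivedCategory.singleFunctor 𝒜 0).map (Φ.map (ιP (E _⦋0⦌) i)) ≫
      (DerivedCategory.singleFunctor 𝒜 0).map (Φ.map (εP a)) ≫ x =
        (DerivedCategory.singleFunctor 𝒜 0).map
          (Φ.map (Functor.whiskerRight (yoneda.map (comps a i)) AddCommGrpCat.free.{u})) ≫ x := by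
    intro i
    rw [← Functor.map_comp_assoc, ← Φ.map_comp, ιP_εP']
  have comp : ∀ {A B : C} (g : A ⟶ B) (g' : B ⟶ V), (DerivedCategory.singleFunctor 𝒜 0).map
          (Φ.map (Functor.whiskerRight (yoneda.map (g ≫ g')) AddCommGrpCat.free.{u})) ≫ x =
      (DerivedCategory.singleFunctor 𝒜 0).map
          (Φ.map (Functor.whiskerRight (yoneda.map g) AddCommGrpCat.free.{u})) ≫
        (DerivedCategory.singleFunctor 𝒜 0).map
          (Φ.map (Functor.whiskerRight (yoneda.map g') AddCommGrpCat.free.{u})) ≫ x := by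
    intro A B g g'
    rw [← Functor.map_comp_assoc, ← Φ.map_comp, ← Functor.whiskerRight_comp, ← Functor.map_comp]
  constructor
  · intro hx k
    obtain ⟨i, g, hg⟩ := hf' k
    rw [← hg, comp]
    have := key i
    rw [hx, comp_zero] at this
    have h6 : (DerivedCategory.singleFunctor 𝒜 0).map
          (Φ.map (Functor.whiskerRight (yoneda.map (comps a i)) AddCommGrpCat.free.{u})) ≫ x = 0 := this.symm
    rw [h6, comp_zero]
  · intro hx
    apply Cofan.IsColimit.hom_ext (good Φ (E _⦋0⦌)).some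
    intro i
    refine (key i).trans ?_
    obtain ⟨k, g, hg⟩ := hf i
    rw [comp_zero, ← hg, comp, hx, comp_zero]

end Groth.Agent.Htor.H257.CechHyper
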