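import Groth.Agent.Htor.H257.CechHyper
import Groth.Agent.CohtopA.CechOpens
import Groth.Prelude.Def_CohB1

/-!
# The Čech-to-hypercohomology filtration for an open cover

The case of a family of opens of a topological space.  Here `Φ` is any exact functor preserving colimits from abelian
presheaves to a Grothendieck abelian category; in the application it is sheafification.  The presheaves of
hypercohomology groups are given as a family `P` with an equality `hP`, so that the instantiation is cheap for the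
kernel.
-/

set_option autoImplicit false

universe u

open CategoryTheory CategoryTheory.Limits Opposite AlgebraicTopology Simplicial TopologicalSpace

namespace Groth.Agent.Htor.H257.CechTopHyper

open Groth.Agent.CohtopA.CechInj Groth.Agent.CohtopA.CechLES Groth.Agent.CohtopA.CechOpens CechFree ExactCouple
  CechCoch CechHyper

variable {X : TopCat.{u}} {𝒜 : Type (u + 1)} [Category.{u} 𝒜] [Abelian 𝒜]
  [IsGrothendieckAbelian.{u} 𝒜] [HasDerivedCategory.{u} 𝒜]
  (Φ : ((Opens X)ᵒᵖ ⥤ AddCommGrpCat.{u}) ⥤ 𝒜) [Φ.Additive] [PreservesFiniteLimits Φ]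
  [PreservesColimitsOfSize.{u, u} Φ]

theorem exists_filtration_opens (K : DerivedCategory 𝒜) (n : ℤ) (b : ℤ) [K.IsGE b] {ι : Type u} (U : ι → Opens X)
    (hw : Φ.map (dFree (EU U) 0) ≫ Φ.map (εP (aug U)) = 0) (hε : IsColimit (CokernelCofork.ofπ (Φ.map (εP (aug U))) hw))
    {V : Opens X} (hV : iSup U = V) (P : ℕ → (Opens X)ᵒᵖ ⥤ AddCommGrpCat.{u})
    (hP : ∀ p : ℕ, P p = PT Φ (DerivedCategory.singleFunctor 𝒜 0)
          ((shiftFunctor (DerivedCategory 𝒜) (n - p)).obj K))
    (r : ∀ i : ι, ((DerivedCategory.singleFunctor 𝒜 0).obj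
        (Φ.obj (yoneda.obj V ⋙ AddCommGrpCat.free.{u})) ⟶ (shiftFunctor (DerivedCategory 𝒜) n).obj K) →+
        ((DerivedCategory.singleFunctor 𝒜 0).obj
        (Φ.obj (yoneda.obj (U i) ⋙ AddCommGrpCat.free.{u})) ⟶ (shiftFunctor (DerivedCategory 𝒜) n).obj K))
    (hr : ∀ i, r i = Preadditive.leftComp _ ((DerivedCategory.singleFunctor 𝒜 0).map
        (Φ.map (Functor.whiskerRight (yoneda.map (homOfLE (hV ▸ le_iSup U i : U i ≤ V))) AddCommGrpCat.free.{u})))) :
    ∃ (N : ℕ) (G : ℕ → Submodule ℤ ((DerivedCategory.singleFunctor 𝒜 0).obj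
        (Φ.obj (yoneda.obj V ⋙ AddCommGrpCat.free.{u})) ⟶ (shiftFunctor (DerivedCategory 𝒜) n).obj K)),
      Antitone G ∧ G 0 = ⊤ ∧ G N = ⊥ ∧
      G 1 = ⨅ i, AddSubgroup.toIntSubmodule (r i).ker ∧
      ∀ p : ℕ, HTor.IsSubquotient ℤ (HTor.grDesc G p) (CohB1.cechHTop U (P p) p) := by
  subst hV
  obtain ⟨N, G, h1, h2, h3, h4, h5⟩ := CechHyper.exists_filtration' Φ K n (EU U)
    (nonempty_ptDegenCech (FormalCoproduct.mk _ U)) b (aug U) hw hε (fun i => homOfLE (le_iSup U i))
    (fun i => ⟨i 0, homOfLE (UU_le U i 0), rfl⟩)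
    (fun k => ⟨fun _ => k, homOfLE (by change _ ≤ UU U (fun _ : Fin 1 => k); rw [UU_eq]; simp), rfl⟩)
  refine ⟨N, G, h1, h2, h3, ?_, ?_⟩
  · ext x
    rw [h4, Submodule.mem_iInf]
    refine forall_congr' fun i => ?_
    change _ ↔ r i x = 0
    rw [hr]
    rfl
  · intro p
    rw [hP]
    exact h5 p

end Groth.Agent.Htor.H257.CechTopHyper
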