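import Groth.Prelude.Def_HTor

/-!
# The filtration attached to an iterated connecting map, and subquotients

* `isSubquotient_of`: `N` is a subquotient of `T` as soon as there is a group `M` with a map `f : M → T` and a
  surjection `g : M → N` such that `ker f ≤ ker g`.
* `Tower`: a sequence of abelian groups `D p` with maps `δ p : D (p + 1) → D p`.  `it p : D p → D 0` is the
  composition, `G p` its range.
* `Tower.filtration`: the resulting filtration.
-/

set_option autoImplicit false

universe u v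

namespace Groth.Agent.Htor.H257.ExactCouple

section Subquotient

variable {R : Type v} [CommRing R] {N T : Type u} [AddCommGroup N] [Module R N] [AddCommGroup T] [Module R T]

/-- A quotient of a submodule is a subquotient, in the form: a map `f : M → T` and a surjection `g : M → N` with
`ker f ≤ ker g`. -/
theorem isSubquotient_of {M : Type*} [AddCommGroup M] [Module R M] (f : M →ₗ[R] T) (g : M →ₗ[R] N)
    (hg : Function.Surjective g) (h : LinearMap.ker f ≤ LinearMap.ker g) : HTor.IsSubquotient R N T := by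
  refine ⟨(LinearMap.ker g).map f, LinearMap.range f, LinearMap.map_le_range, ?_⟩
  let q : LinearMap.range f →ₗ[R] (LinearMap.range f ⧸ Submodule.comap (LinearMap.range f).subtype
    ((LinearMap.ker g).map f)) := Submodule.mkQ _
  let r : M →ₗ[R] (LinearMap.range f ⧸ Submodule.comap (LinearMap.range f).subtype
    ((LinearMap.ker g).map f)) := q ∘ₗ f.rangeRestrict
  have hr : Function.Surjective r := by
    intro x
    obtain ⟨y, rfl⟩ := Submodule.mkQ_surjective _ x
    obtain ⟨z, rfl⟩ := f.surjective_rangeRestrict y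
    exact ⟨z, rfl⟩
  have hker : LinearMap.ker r = LinearMap.ker g := by
    ext x
    rw [LinearMap.mem_ker, LinearMap.mem_ker]
    have h1 : r x = 0 ↔ f.rangeRestrict x ∈ Submodule.comap (LinearMap.range f).subtype
        ((LinearMap.ker g).map f) := Submodule.Quotient.mk_eq_zero _
    rw [h1, Submodule.mem_comap]
    change f x ∈ (LinearMap.ker g).map f ↔ _
    rw [Submodule.mem_map]
    constructor
    · rintro ⟨y, hy, hyx⟩
      have h2 : x - y ∈ LinearMap.ker f := by
        rw [LinearMap.mem_ker, map_sub, hyx, sub_self]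
      have h3 := h h2
      rw [LinearMap.mem_ker, map_sub, LinearMap.mem_ker.1 hy, sub_zero] at h3
      exact h3
    · intro hx
      exact ⟨x, hx, rfl⟩
  exact ⟨(LinearMap.quotKerEquivOfSurjective g hg).symm ≪≫ₗ
    (Submodule.quotEquivOfEq _ _ hker).symm ≪≫ₗ LinearMap.quotKerEquivOfSurjective r hr⟩

/-- Version of `isSubquotient_of` for additive groups. -/
theorem isSubquotient_of_add {N T : Type u} [AddCommGroup N] [Module ℤ N] [AddCommGroup T] [Module ℤ T]
    {M : Type*} [AddCommGroup M] (f : M →+ T) (g : M →+ N)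
    (hg : Function.Surjective g) (h : ∀ x, f x = 0 → g x = 0) : HTor.IsSubquotient ℤ N T := by
  refine isSubquotient_of (R := ℤ) (M := M) { f with map_smul' := fun n x => ?_ }
    { g with map_smul' := fun n x => ?_ } hg ?_
  · exact map_intCast_smul f ℤ ℤ n x
  · exact map_intCast_smul g ℤ ℤ n x
  · intro x hx
    exact h x hx

/-- Subquotients are stable under isomorphisms. -/
theorem _root_.HTor.IsSubquotient.congr' {N' T' : Type u} [AddCommGroup N'] [Module R N'] [AddCommGroup T']
    [Module R T'] (h : HTor.IsSubquotient R N T) (e : N ≃ₗ[R] N') (e' : T ≃ₗ[R] T') :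
    HTor.IsSubquotient R N' T' := by
  obtain ⟨S, S', hS, ⟨i⟩⟩ := h
  refine isSubquotient_of (M := S') (e'.toLinearMap ∘ₗ S'.subtype)
    (e.toLinearMap ∘ₗ i.symm.toLinearMap ∘ₗ Submodule.mkQ _) ?_ ?_
  · exact e.surjective.comp (i.symm.surjective.comp (Submodule.mkQ_surjective _))
  · intro x hx
    have h1 : x = 0 := by
      rw [LinearMap.mem_ker] at hx
      have h2 : e' (S'.subtype x) = 0 := hx
      rw [LinearEquiv.map_eq_zero_iff] at h2
      exact Subtype.ext h2
    rw [h1]
    exact zero_mem _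

end Subquotient

section Tower

variable {D : ℕ → Type u} [∀ p, AddCommGroup (D p)] (δ : ∀ p, D (p + 1) →+ D p)

/-- The iterated map `D p → D 0`. -/
def it : ∀ p, D p →+ D 0
  | 0 => AddMonoidHom.id _
  | p + 1 => (it p).comp (δ p)

@[simp] lemma it_zero (x : D 0) : it δ 0 x = x := rfl

lemma it_succ (p : ℕ) (x : D (p + 1)) : it δ (p + 1) x = it δ p (δ p x) := rfl

/-- The filtration of `D 0` by the images of the `D p`. -/
def G (p : ℕ) : Submodule ℤ (D 0) := AddSubgroup.toIntSubmodule (it δ p).range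

lemma mem_G {p : ℕ} {x : D 0} : x ∈ G δ p ↔ ∃ y, it δ p y = x := Iff.rfl

lemma G_zero : G δ 0 = ⊤ := by
  rw [eq_top_iff]
  intro x _
  exact ⟨x, rfl⟩

lemma G_succ_le (p : ℕ) : G δ (p + 1) ≤ G δ p := by
  rintro _ ⟨y, rfl⟩
  exact ⟨δ p y, rfl⟩

lemma G_antitone : Antitone (G δ) := antitone_nat_of_succ_le (G_succ_le δ)

lemma mem_G_one {x : D 0} : x ∈ G δ 1 ↔ ∃ y, δ 0 y = x := Iff.rfl

lemma G_eq_bot {N : ℕ} (h : Subsingleton (D N)) : G δ N = ⊥ := by
  rw [eq_bot_iff]
  rintro _ ⟨y, rfl⟩
  rw [Subsingleton.elim y 0, map_zero]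
  exact zero_mem _

/-- The map from `D p` to the graded piece. -/
def toGr (p : ℕ) : D p →+ HTor.grDesc (G δ) p where
  toFun x := Submodule.Quotient.mk ⟨it δ p x, ⟨x, rfl⟩⟩
  map_zero' := by
    rw [Submodule.Quotient.mk_eq_zero, Submodule.mem_comap]
    change it δ p 0 ∈ G δ (p + 1)
    rw [map_zero]
    exact zero_mem _
  map_add' x y := by
    rw [← Submodule.Quotient.mk_add]
    congr 1
    apply Subtype.ext
    exact map_add (it δ p) x y

lemma toGr_surjective (p : ℕ) : Function.Surjective (toGr δ p) := by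
  intro x
  obtain ⟨⟨_, y, rfl⟩, rfl⟩ := Submodule.Quotient.mk_surjective _ x
  exact ⟨y, rfl⟩

lemma toGr_eq_zero_iff (p : ℕ) (x : D p) : toGr δ p x = 0 ↔ ∃ y, it δ p (δ p y) = it δ p x :=
  Submodule.Quotient.mk_eq_zero _

/-- The graded piece is a subquotient of `T` as soon as there is a map `f : D p → T` every element of whose kernel is
the sum of an element killed by `it p` and of an element of the image of `δ p`. -/
theorem isSubquotient_gr (p : ℕ) {T : Type u} [AddCommGroup T] [Module ℤ T] (f : D p →+ T)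
    (h : ∀ x, f x = 0 → ∃ y z, it δ p y = 0 ∧ x = y + δ p z) :
    HTor.IsSubquotient ℤ (HTor.grDesc (G δ) p) T := by
  refine isSubquotient_of_add f (toGr δ p) (toGr_surjective δ p) ?_
  intro x hx
  obtain ⟨y, z, hy, rfl⟩ := h x hx
  rw [toGr_eq_zero_iff]
  exact ⟨z, by rw [map_add, hy, zero_add]⟩

end Tower

section Transport

variable {D H : Type u} [AddCommGroup D] [AddCommGroup H] (e : D ≃+ H) (G : ℕ → Submodule ℤ D)

/-- Transport of a filtration along an isomorphism. -/
def Gt (p : ℕ) : Submodule ℤ H := (G p).map (AddEquiv.toIntLinearEquiv e).toLinearMap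

lemma mem_Gt {p : ℕ} {x : H} : x ∈ Gt e G p ↔ e.symm x ∈ G p := by
  constructor
  · rintro ⟨y, hy, rfl⟩
    change e.symm (e y) ∈ G p
    rw [e.symm_apply_apply]
    exact hy
  · intro hx
    exact ⟨e.symm x, hx, e.apply_symm_apply x⟩

lemma Gt_antitone (h : Antitone G) : Antitone (Gt e G) := fun _ _ hpq =>
  Submodule.map_mono (h hpq)

lemma Gt_eq_top {p : ℕ} (h : G p = ⊤) : Gt e G p = ⊤ := by
  rw [eq_top_iff]
  intro x _
  rw [mem_Gt, h]
  trivial

lemma Gt_eq_bot {p : ℕ} (h : G p = ⊥) : Gt e G p = ⊥ := by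
  rw [eq_bot_iff]
  intro x hx
  rw [mem_Gt, h, Submodule.mem_bot] at hx
  rw [Submodule.mem_bot]
  exact (AddEquiv.map_eq_zero_iff e.symm).1 hx

lemma Gt_isSubquotient {p : ℕ} {T : Type u} [AddCommGroup T] [Module ℤ T]
    (h : HTor.IsSubquotient ℤ (HTor.grDesc G p) T) : HTor.IsSubquotient ℤ (HTor.grDesc (Gt e G) p) T := by
  let f : G p ≃ₗ[ℤ] Gt e G p := (AddEquiv.toIntLinearEquiv e).submoduleMap (G p)
  refine HTor.IsSubquotient.congr' h (Submodule.Quotient.equiv _ _ f ?_) (LinearEquiv.refl _ _)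
  ext ⟨x, hx⟩
  rw [Submodule.mem_comap]
  change _ ↔ x ∈ Gt e G (p + 1)
  rw [mem_Gt, Submodule.mem_map]
  constructor
  · rintro ⟨⟨y, hy⟩, hy', hyx⟩
    have h1 : e y = x := congrArg Subtype.val hyx
    rw [← h1, e.symm_apply_apply]
    exact hy'
  · intro hx'
    exact ⟨⟨e.symm x, (mem_Gt e G).1 hx⟩, hx', Subtype.ext (e.apply_symm_apply x)⟩

end Transport

end Groth.Agent.Htor.H257.ExactCouple
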